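import Cfsg.Agent.H821.K547.Defs
import Cfsg.Agent.S0113
import Cfsg.Agent.S0115

/-!
# S4547, tool T3: `P/P'` elementary abelian and an elementary abelian subgroup of order 8 (helper358)
-/

set_option autoImplicit false

namespace Cfsg.Agent.H358.K547

open Cfsg Cfsg.Agent.H821.K547

universe u v

theorem rk_congr {P : Type u} {Q : Type v} [Group P] [Group Q] (e : P ≃* Q) {n : ℕ} (h : Rk n P) : Rk n Q := by
  obtain ⟨f, hf⟩ := h
  exact ⟨f.comp e.symm.toMonoidHom, hf.comp e.symm.surjective⟩

/-- an elementary abelian 2-group of order at least 8 maps onto `C₂³` -/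
theorem rk3_of_comm {A : Type u} [CommGroup A] [Finite A] (h2 : ∀ a : A, a ^ 2 = 1) (hc : 8 ≤ Nat.card A) : Rk 3 A := by
  have h2' : ∀ x : Additive A, 2 • x = 0 := fun x => h2 x.toMul
  let _ : Module (ZMod 2) (Additive A) := AddCommGroup.zmodModule h2'
  have hfin : Module.Finite (ZMod 2) (Additive A) := Module.Finite.of_finite
  let k := Module.finrank (ZMod 2) (Additive A)
  have hk : Nat.card A = 2 ^ k := by
    have h3 := Module.natCard_eq_pow_finrank (K := ZMod 2) (V := Additive A)
    rw [Nat.card_zmod] at h3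
    exact h3
  have hk3 : 3 ≤ k := by
    by_contra hcon
    have : 2 ^ k ≤ 2 ^ 2 := Nat.pow_le_pow_right (by norm_num) (by omega)
    omega
  let e : Additive A ≃ₗ[ZMod 2] (Fin k → ZMod 2) := (Module.finBasis (ZMod 2) (Additive A)).equivFun
  let pr : (Fin k → ZMod 2) →ₗ[ZMod 2] (Fin 3 → ZMod 2) := LinearMap.funLeft (ZMod 2) (ZMod 2) (Fin.castLE hk3)
  have hpr : Function.Surjective pr := LinearMap.funLeft_surjective_of_injective _ _ _ (Fin.castLE_injective hk3)
  let g : Additive A →+ (Fin 3 → ZMod 2) := (pr.comp e.toLinearMap).toAddMonoidHom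
  have hg : Function.Surjective g := hpr.comp e.surjective
  exact ⟨AddMonoidHom.toMultiplicativeRight g, fun y => by
    obtain ⟨x, hx⟩ := hg y.toAdd
    exact ⟨x.toMul, hx⟩⟩

theorem commutator_le_of_isCoatom {U : Type*} [Group U] [Finite U] (hnil : Group.IsNilpotent U)
    {M : Subgroup U} (hM : IsCoatom M) : commutator U ≤ M := by
  have hn : M.Normal :=
    Subgroup.NormalizerCondition.normal_of_coatom M
      (Group.normalizerCondition_of_isNilpotent (G := U)) hM
  by_contra hle
  have h1 : commutator U ⊔ M = ⊤ := by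
    apply hM.2
    exact lt_of_le_of_ne le_sup_right (fun h => hle (by rw [h]; exact le_sup_left))
  have hmap : (commutator U).map (QuotientGroup.mk' M) = ⊤ := by
    have h2 : (commutator U ⊔ M).map (QuotientGroup.mk' M) = ⊤ := by
      rw [h1]; exact Subgroup.map_top_of_surjective _ (QuotientGroup.mk'_surjective M)
    rw [Subgroup.map_sup, QuotientGroup.map_mk'_self, sup_bot_eq] at h2
    exact h2
  have hc : commutator (U ⧸ M) = ⊤ := by
    rw [← top_le_iff, ← hmap, commutator_def, Subgroup.map_commutator]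
    exact Subgroup.commutator_mono le_top le_top
  have hnt : Nontrivial (U ⧸ M) := QuotientGroup.nontrivial_iff.mpr hM.1
  have hs : Group.IsSolvable (U ⧸ M) := inferInstance
  exact (Group.IsSolvable.commutator_lt_top_of_nontrivial (G := U ⧸ M)).ne hc

/-- A finite nilpotent group with cyclic abelianization is cyclic. -/
theorem isCyclic_of_abelianization {U : Type*} [Group U] [Finite U] (hnil : Group.IsNilpotent U)
    (hc : IsCyclic (U ⧸ commutator U)) : IsCyclic U := by
  obtain ⟨v, hv⟩ := hc.exists_generator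
  obtain ⟨g, rfl⟩ := QuotientGroup.mk_surjective v
  refine ⟨g, fun x => ?_⟩
  show x ∈ Subgroup.zpowers g
  by_contra hx
  have hne : Subgroup.zpowers g ≠ ⊤ := fun h => hx (h ▸ Subgroup.mem_top x)
  rcases eq_top_or_exists_le_coatom (Subgroup.zpowers g) with h1 | ⟨M, hM, hgM⟩
  · exact hne h1
  · apply hM.1
    rw [eq_top_iff]
    intro y _
    obtain ⟨k, hk⟩ := Subgroup.mem_zpowers_iff.1 (hv (QuotientGroup.mk y))
    have h2 : (QuotientGroup.mk (g ^ k) : U ⧸ commutator U) = QuotientGroup.mk y := hk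
    rw [QuotientGroup.eq] at h2
    have h3 := commutator_le_of_isCoatom hnil hM h2
    have h4 : g ^ k ∈ M := zpow_mem (hgM (Subgroup.mem_zpowers g)) k
    have : y = g ^ k * ((g ^ k)⁻¹ * y) := by group
    rw [this]
    exact mul_mem h4 h3

/-- a group with a cyclic subgroup of index at most two has no elementary abelian subgroup of order 8 -/
theorem no_elem8 {P : Type u} [Group P] [Finite P] (C : Subgroup P) (hC : IsCyclic C) (hi : C.index ≤ 2)
    (E : Subgroup P) (hE : Nat.card E = 8) (hE2 : ∀ x ∈ E, x ^ 2 = 1) : False := by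
  have h1 : Nat.card (E ⊓ C : Subgroup P) ≤ 2 := by
    have h2 : IsCyclic (E ⊓ C : Subgroup P) := by
      have := (inf_le_right : E ⊓ C ≤ C)
      exact isCyclic_of_injective (Subgroup.inclusion this) (Subgroup.inclusion_injective this)
    obtain ⟨g, hg⟩ := h2.exists_generator
    rw [← orderOf_eq_card_of_forall_mem_zpowers hg]
    have h3 : g ^ 2 = 1 := Subtype.ext (hE2 g g.2.1)
    exact Nat.le_of_dvd (by norm_num) (orderOf_dvd_of_pow_eq_one h3)
  have h2 : Nat.card (E ⊓ C : Subgroup P) * C.relIndex E = Nat.card E := by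
    have h0 := Subgroup.relIndex_mul_relIndex ⊥ (E ⊓ C) E bot_le inf_le_left
    rw [Subgroup.relIndex_bot_left, Subgroup.relIndex_bot_left, Subgroup.inf_relIndex_left] at h0
    exact h0
  have h3 : C.relIndex E ≤ 2 := (Subgroup.relIndex_le_of_le_right (H := C) (K := E) (L := ⊤) le_top (by
    rw [Subgroup.relIndex_top_right]; exact Subgroup.index_ne_zero_of_finite)).trans (by
    rwa [Subgroup.relIndex_top_right])
  rw [hE] at h2
  have h4 := Nat.mul_le_mul h1 h3
  omega

theorem rk3_of_elem {P : Type u} [Group P] [Finite P] (hP : IsPGroup 2 P) (h : ∀ x : P, x ^ 2 ∈ commutator P)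
    (E : Subgroup P) (hE : Nat.card E = 8) (hE2 : ∀ x ∈ E, x ^ 2 = 1) : Rk 3 P := by
  have hf : Fact (Nat.Prime 2) := ⟨Nat.prime_two⟩
  have h2 : ∀ a : P ⧸ commutator P, a ^ 2 = 1 := by
    intro a
    obtain ⟨x, rfl⟩ := QuotientGroup.mk_surjective a
    rw [← QuotientGroup.mk_pow]
    exact (QuotientGroup.eq_one_iff _).2 (h x)
  by_cases hc : 8 ≤ Nat.card (P ⧸ commutator P)
  · have h3 : Rk 3 (Abelianization P) := rk3_of_comm (A := Abelianization P) h2 hc
    obtain ⟨f, hf⟩ := h3
    exact ⟨f.comp (QuotientGroup.mk' (commutator P)), hf.comp (QuotientGroup.mk'_surjective _)⟩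
  exfalso
  have hA : IsPGroup 2 (P ⧸ commutator P) := hP.to_quotient _
  obtain ⟨k, hk⟩ := IsPGroup.iff_card.1 hA
  rw [hk] at hc
  have hk2 : k ≤ 2 := by
    by_contra hcon
    exact hc (by
      calc 8 = 2 ^ 3 := by norm_num
        _ ≤ 2 ^ k := Nat.pow_le_pow_right (by norm_num) (by omega))
  by_cases hk1 : k ≤ 1
  · have hcyc : IsCyclic (P ⧸ commutator P) := by
      rcases Nat.le_one_iff_eq_zero_or_eq_one.1 hk1 with rfl | rfl
      · rw [pow_zero] at hk
        have := (Nat.card_eq_one_iff_unique.1 hk).1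
        infer_instance
      · rw [pow_one] at hk
        exact isCyclic_of_prime_card hk
    have h3 := isCyclic_of_abelianization hP.isNilpotent hcyc
    exact no_elem8 ⊤ (by
      exact isCyclic_of_surjective (Subgroup.topEquiv (G := P)).symm (Subgroup.topEquiv (G := P)).symm.surjective)
      (by rw [Subgroup.index_top]; norm_num) E hE hE2
  · have hk4 : Nat.card (P ⧸ commutator P) = 4 := by
      rw [hk, show k = 2 by omega]
      norm_num
    have hkl : IsKleinFour (P ⧸ commutator P) := by
      refine ⟨hk4, ?_⟩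
      apply Nat.dvd_antisymm
      · rw [Monoid.exponent_dvd_iff_forall_pow_eq_one]
        exact h2
      · by_contra hcon
        have h5 : Monoid.exponent (P ⧸ commutator P) ∣ 2 := by
          rw [Monoid.exponent_dvd_iff_forall_pow_eq_one]
          exact h2
        rcases (Nat.dvd_prime Nat.prime_two).1 h5 with h6 | h6
        · have h7 : Subsingleton (P ⧸ commutator P) := Monoid.exp_eq_one_iff.1 h6
          rw [Nat.card_unique] at hk4
          omega
        · exact hcon (by rw [h6])
    obtain ⟨n, hn⟩ := IsPGroup.iff_card.1 hP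
    have hn3 : 3 ≤ n := by
      have h5 : Nat.card E ≤ Nat.card P := Nat.card_le_card_of_injective _ E.subtype_injective
      rw [hE, hn] at h5
      by_contra hcon
      have h6 : 2 ^ n ≤ 2 ^ 2 := Nat.pow_le_pow_right (by norm_num) (by omega)
      omega
    obtain ⟨C, hC, hi⟩ := Cfsg.Agent.S0113.result n hn3 hn ((Cfsg.Agent.S0115.result n hn3 hn).2 hkl)
    exact no_elem8 C hC hi.le E hE hE2

/-- T3 for a quotient -/
theorem d3_of_quot {G : Type v} {Y : Type u} [Group G] [Finite G] [Group Y] (f : G →* Y) (hf : Function.Surjective f)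
    (h : ∀ (P : Sylow 2 G) (x : (P : Subgroup G)), x ^ 2 ∈ commutator (P : Subgroup G))
    (E : Subgroup Y) (hE : Nat.card E = 8) (hE2 : ∀ x ∈ E, x ^ 2 = 1) : D3 Y := by
  have hfact : Fact (Nat.Prime 2) := ⟨Nat.prime_two⟩
  have hfin : Finite Y := Finite.of_surjective f hf
  intro Q
  have hEp : IsPGroup 2 E := IsPGroup.iff_card.2 ⟨3, by rw [hE]; norm_num⟩
  obtain ⟨R, hR⟩ := hEp.exists_le_sylow
  refine rk_congr (R.equiv Q) ?_
  obtain ⟨P, hP⟩ := Sylow.mapSurjective_surjective hf 2 R
  have hPR : (P : Subgroup G).map f = R := congrArg (fun S : Sylow 2 Y => (S : Subgroup Y)) hP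
  let g : (P : Subgroup G) →* (R : Subgroup Y) := (f.comp (P : Subgroup G).subtype).codRestrict (R : Subgroup Y)
    (fun x => by rw [← hPR]; exact ⟨x, x.2, rfl⟩)
  have hg : Function.Surjective g := by
    rintro ⟨y, hy⟩
    rw [← hPR] at hy
    obtain ⟨x, hx, rfl⟩ := hy
    exact ⟨⟨x, hx⟩, rfl⟩
  refine rk3_of_elem R.isPGroup' ?_ (E.subgroupOf R) ?_ ?_
  · intro y
    obtain ⟨x, rfl⟩ := hg y
    rw [← map_pow]
    have h3 : (commutator (P : Subgroup G)).map g ≤ commutator (R : Subgroup Y) := by
      rw [commutator_def, Subgroup.map_commutator]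
      exact Subgroup.commutator_mono le_top le_top
    exact h3 ⟨_, h P x, rfl⟩
  · rw [← hE]
    exact Nat.card_congr (Subgroup.subgroupOfEquivOfLe hR).toEquiv
  · intro x hx
    exact Subtype.ext (hE2 _ hx)

theorem d3_congr {G : Type u} {H : Type v} [Group G] [Group H] (e : G ≃* H) (h : D3 G) : D3 H := by
  intro Q
  let P : Sylow 2 G := Q.comapOfInjective e.toMonoidHom e.injective (by
    rw [MonoidHom.range_eq_top.2 e.surjective]
    exact le_top)
  have h1 := h P
  have hPQ : (P : Subgroup G).map e.toMonoidHom = Q := by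
    change ((Q : Subgroup H).comap e.toMonoidHom).map e.toMonoidHom = Q
    exact Subgroup.map_comap_eq_self_of_surjective e.surjective _
  exact rk_congr ((e.subgroupMap (P : Subgroup G)).trans (MulEquiv.subgroupCongr hPQ)) h1

end Cfsg.Agent.H358.K547
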